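import Cfsg.Agent.Lib.Transfer.SylowIn
import Mathlib.GroupTheory.GroupAction.Quotient
import Mathlib.GroupTheory.GroupAction.FixedPoints

/-!
A finite group is not the union of the conjugates of a proper subgroup.
-/

set_option autoImplicit false

namespace Cfsg.Agent.Lib.Transfer

open Subgroup MulAction

theorem exists_forall_conj_not_mem {G : Type*} [Group G] [Finite G] {H : Subgroup G}
    (h : H ≠ ⊤) : ∃ x : G, ∀ g : G, g * x * g⁻¹ ∉ H := by
  classical
  by_contra hc
  push Not at hc
  haveI := Fintype.ofFinite G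
  haveI := Fintype.ofFinite (G ⧸ H)
  haveI := Fintype.ofFinite (Quotient (orbitRel G (G ⧸ H)))
  have h1 := sum_card_fixedBy_eq_card_orbits_mul_card_group G (G ⧸ H)
  have h2 : Fintype.card (Quotient (orbitRel G (G ⧸ H))) ≤ 1 :=
    Fintype.card_le_one_iff_subsingleton.2 ((pretransitive_iff_subsingleton_quotient G _).1
      inferInstance)
  have h3 : ∑ _a : G, 1 < ∑ a : G, Fintype.card (fixedBy (G ⧸ H) a) := by
    refine Finset.sum_lt_sum (fun a _ => ?_) ⟨1, Finset.mem_univ _, ?_⟩
    · obtain ⟨g, hg⟩ := hc a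
      refine Fintype.card_pos_iff.2 ⟨⟨(g⁻¹ : G), ?_⟩⟩
      rw [mem_fixedBy, Quotient.smul_mk, QuotientGroup.eq, smul_eq_mul]
      have : (a * g⁻¹)⁻¹ * g⁻¹ = (g * a * g⁻¹)⁻¹ := by group
      rw [this]
      exact inv_mem hg
    · have h4 := one_lt_index_of_ne_top h
      rw [index_eq_card, Nat.card_eq_fintype_card] at h4
      rwa [Fintype.card_congr (Equiv.setCongr (fixedBy_one_eq_univ (G ⧸ H) G)),
        Fintype.card_congr (Equiv.Set.univ _)]
  rw [h1, Finset.sum_const, Finset.card_univ, smul_eq_mul, mul_one] at h3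
  have := Nat.mul_le_mul_right (Fintype.card G) h2
  omega

end Cfsg.Agent.Lib.Transfer
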